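import Cfsg.Agent.Lib.Helper9.S4033.Defs
import Cfsg.Agent.S0071

set_option autoImplicit false

/-!
# S4033, package [EA]

If no element of prime order `r ≠ p` normalizes a nontrivial `r'`-subgroup, then at most one
prime `≠ p` divides the order of the group.  (Two applications of Frobenius' normal
complement criterion, S0071.)
-/

namespace Cfsg.Agent.Lib.Helper65.S4033

universe u

/-- Frobenius: if no element of prime order `r ≠ ℓ` normalizes a nontrivial `ℓ`-subgroup, there
is a normal `ℓ`-complement. -/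
theorem exists_normal_complement {X : Type u} [Group X] [Finite X] {ℓ : ℕ} [Fact ℓ.Prime]
    (L : Sylow ℓ X)
    (h : ∀ r : ℕ, r.Prime → r ≠ ℓ → ∀ x : X, orderOf x = r → ∀ Q : Subgroup X, Q ≠ ⊥ →
      IsPGroup ℓ Q → (∀ d ∈ Q, x * d * x⁻¹ ∈ Q) → False) :
    ∃ N : Subgroup X, N.Normal ∧ N.IsComplement' (L : Subgroup X) := by
  rw [Cfsg.Agent.S0071.result L]
  intro Q hQL g hg hcop
  by_cases hQ : Q = ⊥
  · subst hQ
    rw [Subgroup.mem_centralizer_iff]
    intro y hy
    have hy1 : y = 1 := by simpa using hy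
    rw [hy1, one_mul, mul_one]
  by_contra hgC
  have hg1 : g ≠ 1 := by
    rintro rfl
    exact hgC (one_mem _)
  have hord : orderOf g ≠ 1 := by rwa [Ne, orderOf_eq_one_iff]
  obtain ⟨r, hr, hrd⟩ := Nat.exists_prime_and_dvd hord
  have hrl : r ≠ ℓ := by
    rintro rfl
    have h1 : r ∣ Nat.gcd (orderOf g) r := Nat.dvd_gcd hrd dvd_rfl
    rw [hcop] at h1
    exact hr.one_lt.ne' (Nat.dvd_one.mp h1)
  have hx : orderOf (g ^ (orderOf g / r)) = r :=
    orderOf_pow_orderOf_div (orderOf_pos g).ne' hrd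
  have hxn : g ^ (orderOf g / r) ∈ Subgroup.normalizer (Q : Set X) := pow_mem hg _
  refine h r hr hrl _ hx Q hQ (L.isPGroup'.to_le hQL) ?_
  intro d hd
  exact (Subgroup.mem_normalizer_iff.mp hxn d).mp hd

/-- [EA] -/
theorem pkgEA : Cfsg.Agent.Lib.Helper9.S4033.PkgEA.{u} := by
  intro E _ _ p hp hH s t hs ht hsp htp hsE htE
  by_contra hst
  have hpf : Fact p.Prime := ⟨hp⟩
  have hsf : Fact s.Prime := ⟨hs⟩
  -- a normal `p`-complement `K`
  obtain ⟨P⟩ : Nonempty (Sylow p E) := inferInstance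
  obtain ⟨K, hKn, hKc⟩ := exists_normal_complement P (by
    intro r hr hrp x hx Q hQ hQp hnorm
    refine hH r hr hrp x hx Q hQ ?_ hnorm
    obtain ⟨k, hk⟩ := IsPGroup.iff_card.mp hQp
    rw [hk]
    exact Nat.Coprime.pow_left k ((Nat.coprime_primes hp hr).mpr (Ne.symm hrp)))
  have hcard : Nat.card K * Nat.card P = Nat.card E := hKc.card_mul_card
  obtain ⟨kP, hkP⟩ := IsPGroup.iff_card.mp P.isPGroup'
  have hKp : ¬ p ∣ Nat.card K := by
    have h1 : (P : Subgroup E).index = Nat.card K := hKc.index_eq_card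
    rw [← h1]
    exact P.not_dvd_index
  have hdvdK : ∀ r : ℕ, r.Prime → r ≠ p → r ∣ Nat.card E → r ∣ Nat.card K := by
    intro r hr hrp hrE
    rw [← hcard] at hrE
    have hc : Nat.Coprime r (Nat.card P) := by
      rw [hkP]
      exact Nat.Coprime.pow_right kP ((Nat.coprime_primes hr hp).mpr hrp)
    exact hc.dvd_of_dvd_mul_right hrE
  have hsK : s ∣ Nat.card K := hdvdK s hs hsp hsE
  have htK : t ∣ Nat.card K := hdvdK t ht htp htE
  -- inside `K`: a normal `s`-complement `Ks`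
  obtain ⟨S⟩ : Nonempty (Sylow s ↥K) := inferInstance
  obtain ⟨Ks, hKsn, hKsc⟩ := exists_normal_complement S (by
    intro r hr hrs x hx Q hQ hQs hnorm
    have hrp : r ≠ p := by
      rintro rfl
      apply hKp
      rw [← hx]
      exact orderOf_dvd_natCard x
    refine hH r hr hrp (x : E) (by rw [Subgroup.orderOf_coe]; exact hx) (Q.map K.subtype) ?_ ?_ ?_
    · intro h0
      exact hQ ((Subgroup.map_eq_bot_iff_of_injective Q K.subtype_injective).mp h0)
    · rw [Subgroup.card_map_of_injective K.subtype_injective]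
      obtain ⟨k, hk⟩ := IsPGroup.iff_card.mp hQs
      rw [hk]
      exact Nat.Coprime.pow_left k ((Nat.coprime_primes hs hr).mpr (Ne.symm hrs))
    · rintro _ ⟨d, hd, rfl⟩
      exact ⟨x * d * x⁻¹, hnorm d hd, by simp⟩)
  have hcard2 : Nat.card Ks * Nat.card S = Nat.card K := hKsc.card_mul_card
  obtain ⟨kS, hkS⟩ := IsPGroup.iff_card.mp S.isPGroup'
  have htKs : t ∣ Nat.card Ks := by
    rw [← hcard2] at htK
    have hc : Nat.Coprime t (Nat.card S) := by
      rw [hkS]
      exact Nat.Coprime.pow_right kS ((Nat.coprime_primes ht hs).mpr (Ne.symm hst))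
    exact hc.dvd_of_dvd_mul_right htK
  have hKs_ne : Ks ≠ ⊥ := by
    rintro rfl
    rw [Subgroup.card_bot] at htKs
    exact ht.one_lt.ne' (Nat.dvd_one.mp htKs)
  have hKs_cop : (Nat.card Ks).Coprime s := by
    have h1 : (S : Subgroup ↥K).index = Nat.card Ks := hKsc.index_eq_card
    rw [← h1]
    exact ((Nat.Prime.coprime_iff_not_dvd hs).mpr S.not_dvd_index).symm
  -- an element of order `s` of `K` normalizes `Ks`
  obtain ⟨x, hx⟩ := exists_prime_orderOf_dvd_card' s hsK
  refine hH s hs hsp (x : E) (by rw [Subgroup.orderOf_coe]; exact hx) (Ks.map K.subtype) ?_ ?_ ?_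
  · intro h0
    exact hKs_ne ((Subgroup.map_eq_bot_iff_of_injective Ks K.subtype_injective).mp h0)
  · rw [Subgroup.card_map_of_injective K.subtype_injective]
    exact hKs_cop
  · rintro _ ⟨d, hd, rfl⟩
    exact ⟨x * d * x⁻¹, hKsn.conj_mem d hd x, by simp⟩

example : Cfsg.Agent.Lib.Helper9.S4033.PkgEA.{0} := pkgEA
example : Cfsg.Agent.Lib.Helper9.S4033.PkgEA.{3} := pkgEA

end Cfsg.Agent.Lib.Helper65.S4033
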