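import Cfsg.Agent.Lib.Helper65.S4033.EA

set_option autoImplicit false

/-!
# S4033, package [PE]: [PA] and [EA] glued.
-/

namespace Cfsg.Agent.Lib.Helper65.S4033

universe u

/-- [PE] from [PA] (and the landed [EA]). -/
theorem pkgPE (hPA : Cfsg.Agent.Lib.Helper9.S4033.PkgPA.{u}) :
    Cfsg.Agent.Lib.Helper9.S4033.PkgPE.{u} := by
  intro V _ _ hcomm E Z p hp hfpf hfix hex s t hs ht hsp htp hsE htE
  have hfinA : Finite (MulAut V) :=
    Finite.of_injective (fun e : MulAut V => (e : V → V)) (fun a b h => DFunLike.coe_injective h)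
  refine pkgEA ↥E p hp ?_ s t hs ht hsp htp hsE htE
  intro r hr hrp e he D hD hDr hnorm
  have hrE : r ∣ Nat.card ↥E := by
    rw [← he]
    exact orderOf_dvd_natCard e
  refine hPA V hcomm E Z r hr hfpf hfix (hex r hr hrp hrE) (e : MulAut V) e.2
    (by rw [Subgroup.orderOf_coe]; exact he) (D.map E.subtype) ?_ ?_ ?_ ?_
  · rintro _ ⟨d, -, rfl⟩
    exact d.2
  · intro h0
    exact hD ((Subgroup.map_eq_bot_iff_of_injective D E.subtype_injective).mp h0)
  · rw [Subgroup.card_map_of_injective E.subtype_injective]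
    exact hDr
  · rintro _ ⟨d, hd, rfl⟩
    exact ⟨e * d * e⁻¹, hnorm d hd, by simp⟩

/-- the same with both packages as hypotheses -/
theorem pkgPE_of (hPA : Cfsg.Agent.Lib.Helper9.S4033.PkgPA.{u})
    (_hEA : Cfsg.Agent.Lib.Helper9.S4033.PkgEA.{u}) :
    Cfsg.Agent.Lib.Helper9.S4033.PkgPE.{u} := pkgPE hPA

example (h : Cfsg.Agent.Lib.Helper9.S4033.PkgPA.{0}) : Cfsg.Agent.Lib.Helper9.S4033.PkgPE.{0} :=
  pkgPE h
example (h : Cfsg.Agent.Lib.Helper9.S4033.PkgPA.{3}) : Cfsg.Agent.Lib.Helper9.S4033.PkgPE.{3} :=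
  pkgPE h

end Cfsg.Agent.Lib.Helper65.S4033
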